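import Cfsg.Agent.Lib.SmallSimple.BrauerB
import Cfsg.Agent.Lib.Block.Central

/-!
# The values of principal block characters at involutions of the centralizer, and the integrality
of the central characters in divisibility form.
-/

set_option autoImplicit false
set_option linter.unusedSectionVars false
set_option linter.style.haveILetI false
set_option linter.unusedSimpArgs false
set_option linter.unnecessarySimpa false
set_option linter.unusedVariables false

open scoped ComplexConjugate
open Subgroup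

namespace Cfsg.Agent.Lib.SmallSimple.BB

open Cfsg (classInner IsCharacter IsIrrCharacter IrrCharacter IsClassFunction indFun
  extendByZero IsGeneralizedCharacter IsPModular principalBlock IsPPart centralizerPPrimeCore pPrimeCore)
open Cfsg.Agent.Lib.Char
open Cfsg.Agent.Lib.Block hiding tr
open Cfsg.Agent.Lib.SmallSimple.Star
open Cfsg.Agent.Lib.SmallSimple.BL
open Cfsg.Agent.Lib.Char (detHom detHom_apply)

universe u

variable {G : Type u} [Group G] {p : ℕ} {x : G}

section Block

variable [Fintype G] {M : Ideal Cfsg.AlgInt} [hp : Fact p.Prime]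

/-- The value of a principal block character at an involution of the centralizer. -/
theorem invol_value [IsSimpleGroup G] (hper : ∀ β : G →* ℂˣ, β = 1) (hM : IsPModular p M)
    (hx : orderOf x = p) (hsyl : ¬ p ^ 2 ∣ Nat.card G) (hp2 : p ≠ 2) {t : G} (ht : orderOf t = 2)
    (htc : t ∈ centralizer ({x} : Set G)) (χ : IrrCharacter G) (hχ : χ ∈ principalBlock M G)
    (hχ1 : χ ≠ oneIrr G) {d : ℕ} (hd : (χ : G → ℂ) 1 = d) :
    ∃ a : ℕ, (χ : G → ℂ) 1 - (χ : G → ℂ) t = 2 * (a : ℂ) ∧ 2 * p ∣ a ∧ a ≠ 0 ∧ a ≤ d := by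
  classical
  have hpr := hp.out
  have hpodd : Odd p := hpr.odd_of_ne_two hp2
  have ht2 : t ^ 2 = 1 := by rw [← ht]; exact pow_orderOf_eq_one t
  have ht1 : t ≠ 1 := by
    rintro rfl
    simp at ht
  -- constancy on the section
  have hconst : ∀ u : zpowers x, (u : G) ≠ 1 → (χ : G → ℂ) ((u : G) * t) = (χ : G → ℂ) u := by
    intro u hu
    have huo := orderOf_of_mem hpr hx u.2 hu
    refine irr_mul_of_principal hM ⟨1, by rw [huo, pow_one]⟩ ?_ χ hχ
    obtain ⟨N, hN, hN', hidx, -⟩ := exists_complement (p := p) (x := (u : G)) huo hsyl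
    have htu : t ∈ centralizer ({(u : G)} : Set G) := by
      rw [centralizer_eq hpr hx u.2 hu]
      exact htc
    refine ⟨⟨t, htu⟩, ?_, rfl⟩
    have h1 := Cfsg.Agent.Lib.Core.le_pPrimeCore hN
      (((Nat.Prime.coprime_iff_not_dvd hpr).mpr hN').symm)
    apply h1
    have h2 := Subgroup.pow_index_mem N (⟨t, htu⟩ : centralizer ({(u : G)} : Set G))
    rw [hidx] at h2
    obtain ⟨k, hk⟩ := hpodd
    have h3 : (⟨t, htu⟩ : centralizer ({(u : G)} : Set G)) ^ p = ⟨t, htu⟩ := by
      apply Subtype.ext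
      rw [hk]
      simp [pow_succ, pow_mul, ht2]
    rwa [h3] at h2
  -- the integrality
  haveI : Fintype (zpowers x) := Fintype.ofFinite _
  haveI : Fintype (zpowers t) := Fintype.ofFinite _
  have hZ : ∀ s : zpowers t, (s : G) = 1 ∨ (s : G) = t := by
    rintro ⟨s, hs⟩
    obtain ⟨k, rfl⟩ := Subgroup.mem_zpowers_iff.mp hs
    have ht2' : t * t = 1 := by rw [← pow_two]; exact ht2
    rcases Int.even_or_odd' k with ⟨m, rfl | rfl⟩
    · left
      show t ^ (2 * m) = 1
      rw [zpow_mul]
      have : t ^ (2 : ℤ) = 1 := by exact_mod_cast ht2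
      rw [this, one_zpow]
    · right
      show t ^ (2 * m + 1) = t
      rw [zpow_add, zpow_mul]
      have : t ^ (2 : ℤ) = 1 := by exact_mod_cast ht2
      rw [this, one_zpow]
      simp
  have hcomm : ∀ (u : zpowers x) (s : zpowers t), Commute (u : G) (s : G) := by
    intro u s
    rcases hZ s with h | h
    · rw [h]
      exact Commute.one_right _
    · rw [h]
      obtain ⟨k, hk⟩ := Subgroup.mem_zpowers_iff.mp u.2
      have hc : Commute t x := Subgroup.mem_centralizer_singleton_iff.mp htc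
      rw [← hk]
      exact (hc.zpow_right k).symm
  let φ : zpowers x × zpowers t →* G :=
    MonoidHom.noncommCoprod (zpowers x).subtype (zpowers t).subtype (fun u s => hcomm u s)
  have hφ : ∀ (u : zpowers x) (s : zpowers t), φ (u, s) = (u : G) * s := fun u s => rfl
  obtain ⟨n, hn⟩ := classInner_isCharacter_nat (IsCharacter.comp φ (IsIrrCharacter.isCharacter χ.2))
    (IsIrrCharacter.isCharacter (isIrrCharacter_one (G := zpowers x × zpowers t)))
  obtain ⟨m, hm⟩ := classInner_isCharacter_nat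
    (IsCharacter.restrict (zpowers x) (IsIrrCharacter.isCharacter χ.2))
    (IsIrrCharacter.isCharacter (isIrrCharacter_one (G := zpowers x)))
  have hp0 : (p : ℂ) ≠ 0 := by exact_mod_cast hpr.ne_zero
  have hcardH : Nat.card (zpowers x × zpowers t) = p * 2 := by
    rw [Nat.card_prod, Nat.card_zpowers, Nat.card_zpowers, hx, ht]
  have hsumZ : ∀ f : G → ℂ, ∑ s : zpowers t, f s = f 1 + f t := by
    intro f
    have hne : (1 : zpowers t) ≠ ⟨t, mem_zpowers t⟩ := fun h0 => ht1 (congrArg Subtype.val h0).symm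
    refine (Fintype.sum_eq_add (1 : zpowers t) ⟨t, mem_zpowers t⟩ hne ?_)
    rintro s ⟨h1, h2⟩
    exfalso
    rcases hZ s with h | h
    · exact h1 (Subtype.ext h)
    · exact h2 (Subtype.ext h)
  have h1 : ∑ u : zpowers x, ((χ : G → ℂ) u + (χ : G → ℂ) ((u : G) * t)) = ((p * 2 : ℕ) : ℂ) * n := by
    rw [classInner_def, hcardH] at hn
    have h2 : ((p * 2 : ℕ) : ℂ) ≠ 0 := by
      push_cast
      exact mul_ne_zero hp0 two_ne_zero
    rw [inv_mul_eq_iff_eq_mul₀ h2, Fintype.sum_prod_type] at hn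
    rw [← hn]
    refine Finset.sum_congr rfl fun u _ => ?_
    have h3 := hsumZ (fun g => (χ : G → ℂ) ((u : G) * g))
    simp only [mul_one] at h3
    rw [← h3]
    refine Finset.sum_congr rfl fun s _ => ?_
    simp [hφ]
  have h2 : ∑ u : zpowers x, (χ : G → ℂ) u = (p : ℂ) * m := by
    rw [classInner_def, Nat.card_zpowers, hx, inv_mul_eq_iff_eq_mul₀ hp0] at hm
    rw [← hm]
    refine Finset.sum_congr rfl fun u _ => ?_
    simp
  have h3 : ∑ u : zpowers x, ((χ : G → ℂ) ((u : G) * t) - (χ : G → ℂ) u) = (χ : G → ℂ) t - (χ : G → ℂ) 1 := by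
    rw [Finset.sum_eq_single (1 : zpowers x)]
    · simp
    · intro u _ hu
      rw [hconst u (fun h0 => hu (Subtype.ext h0)), sub_self]
    · intro h0
      exact absurd (Finset.mem_univ _) h0
  obtain ⟨a, d', hd', ha, heven, hle⟩ := exists_even_of_involution (IsIrrCharacter.isCharacter χ.2) hper ht2
  have hdd : d' = d := by
    rw [hd] at hd'
    exact_mod_cast hd'.symm
  subst hdd
  have h4 : (a : ℂ) = (p : ℂ) * ((m : ℂ) - n) := by
    have h5 : ∑ u : zpowers x, ((χ : G → ℂ) u + (χ : G → ℂ) ((u : G) * t)) =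
        2 * ∑ u : zpowers x, (χ : G → ℂ) u + ∑ u : zpowers x, ((χ : G → ℂ) ((u : G) * t) - (χ : G → ℂ) u) := by
      rw [Finset.mul_sum, ← Finset.sum_add_distrib]
      refine Finset.sum_congr rfl fun u _ => ?_
      ring
    rw [h1, h2, h3] at h5
    push_cast at h5
    have h6 : (2 : ℂ) ≠ 0 := two_ne_zero
    apply mul_left_cancel₀ h6
    rw [← ha]
    linear_combination h5
  have h5 : (a : ℤ) = (p : ℤ) * ((m : ℤ) - n) := by
    have : ((a : ℤ) : ℂ) = (((p : ℤ) * ((m : ℤ) - n) : ℤ) : ℂ) := by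
      push_cast
      exact h4
    exact_mod_cast this
  have hpa : p ∣ a := by
    have : (p : ℤ) ∣ (a : ℤ) := ⟨_, h5⟩
    exact_mod_cast this
  have ha0 : a ≠ 0 := by
    rintro rfl
    apply ne_of_involution χ hχ1 ht1
    have : (χ : G → ℂ) 1 - (χ : G → ℂ) t = 0 := by
      rw [ha]
      simp
    exact (sub_eq_zero.mp this).symm
  have h2a : 2 ∣ a := heven.two_dvd
  have hcop : Nat.Coprime 2 p := (Nat.coprime_two_left).mpr hpodd
  have hda : 2 * p ∣ a := hcop.mul_dvd_of_dvd_of_dvd h2a hpa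
  exact ⟨a, ha, hda, ha0, hle⟩


/-- The degree divides the class size times the value, for an integer value. -/
theorem deg_dvd_of_value (χ : IrrCharacter G) {d : ℕ} (hd : (χ : G → ℂ) 1 = d) (hd0 : d ≠ 0) (g : G) {v : ℕ}
    (hv : (χ : G → ℂ) g = v ∨ (χ : G → ℂ) g = -(v : ℂ)) :
    d ∣ (centralizer ({g} : Set G)).index * v := by
  have h1 := Cfsg.Agent.Lib.Block.isIntegral_centralChar χ.2 g
  unfold Cfsg.centralChar at h1
  rw [hd] at h1
  rcases hv with hv | hv
  · rw [hv] at h1
    apply Cfsg.Agent.Lib.Char.nat_dvd_of_isIntegral_div hd0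
    push_cast
    exact h1
  · rw [hv] at h1
    apply Cfsg.Agent.Lib.Char.nat_dvd_of_isIntegral_div hd0
    push_cast
    have h2 : ((centralizer ({g} : Set G)).index : ℂ) * (v : ℂ) / (d : ℂ) =
        -(((centralizer ({g} : Set G)).index : ℂ) * (-(v : ℂ)) / (d : ℂ)) := by ring
    rw [h2]
    exact h1.neg

end Block

end Cfsg.Agent.Lib.SmallSimple.BB
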