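import Cfsg.Agent.Lib.SmallSimple.BlockApply
import Cfsg.Agent.Lib.Degree.PElement
import Cfsg.Agent.Lib.Char.Complete

/-!
# Character sums used to exclude simple groups of order `4032`.
-/

set_option autoImplicit false
set_option linter.unusedSectionVars false
set_option linter.style.haveILetI false
set_option linter.unusedSimpArgs false
set_option linter.unnecessarySimpa false
set_option linter.unusedVariables false

open Subgroup
open scoped ComplexConjugate

namespace Cfsg.Agent.Lib.SmallSimple.O4032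

open Cfsg (classInner IsCharacter IsIrrCharacter IrrCharacter IsClassFunction)
open Cfsg.Agent.Lib.Char

universe u

variable {G : Type u} [Group G] [Fintype G]

open Classical in
/-- The sum of a character over a subgroup is a multiple of its order. -/
theorem sum_subgroup_nat {χ : G → ℂ} (hχ : IsCharacter G χ) (H : Subgroup G) :
    ∃ m : ℕ, ∑ g ∈ Finset.univ.filter (· ∈ H), χ g = (Nat.card H : ℂ) * m := by
  have h1 : IsCharacter H (fun _ => (1 : ℂ)) := IsIrrCharacter.isCharacter isIrrCharacter_one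
  obtain ⟨m, hm⟩ := classInner_isCharacter_nat (IsCharacter.comp H.subtype hχ) h1
  refine ⟨m, ?_⟩
  have h2 : ∑ g ∈ Finset.univ.filter (· ∈ H), χ g = ∑ h : H, χ h :=
    Finset.sum_subtype _ (by simp) χ
  have h3 : (Nat.card H : ℂ) ≠ 0 := by exact_mod_cast Nat.card_pos.ne'
  rw [h2, ← hm]
  simp only [classInner, Function.comp, map_one, mul_one, Subgroup.coe_subtype]
  field_simp

open Classical in
/-- The sum of the squared norms of a character over a subgroup is a multiple of its order. -/
theorem sum_normSq_subgroup_nat {χ : G → ℂ} (hχ : IsCharacter G χ) (H : Subgroup G) :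
    ∃ m : ℕ, ∑ g ∈ Finset.univ.filter (· ∈ H), Complex.normSq (χ g) = (Nat.card H : ℝ) * m := by
  have hc := IsCharacter.comp H.subtype hχ
  obtain ⟨m, hm⟩ := classInner_isCharacter_nat hc hc
  refine ⟨m, ?_⟩
  have h2 : ∑ g ∈ Finset.univ.filter (· ∈ H), Complex.normSq (χ g) =
      ∑ h : H, Complex.normSq (χ h) :=
    Finset.sum_subtype _ (by simp) _
  have h3 : (Nat.card H : ℂ) ≠ 0 := by exact_mod_cast Nat.card_pos.ne'
  rw [h2]
  have h4 : ((∑ h : H, Complex.normSq (χ h) : ℝ) : ℂ) = (Nat.card H : ℂ) * m := by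
    rw [← hm]
    simp only [classInner, Function.comp, Subgroup.coe_subtype, Complex.mul_conj]
    push_cast
    field_simp
  exact_mod_cast h4

open Classical in
/-- The generators of a cyclic `2`-subgroup, on which a non-vanishing character has squared
norms of average at least one. -/
theorem card_gens_le_sum {χ : G → ℂ} (hχ : IsCharacter G χ) {g₀ : G} {k : ℕ}
    (hk : orderOf g₀ = 2 ^ (k + 1)) (h0 : χ g₀ ≠ 0) :
    (((Finset.univ.filter fun g : G => zpowers g = zpowers g₀).card : ℕ) : ℝ) ≤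
      ∑ g ∈ Finset.univ.filter (fun g : G => zpowers g = zpowers g₀), Complex.normSq (χ g) := by
  set Gn := Finset.univ.filter fun g : G => zpowers g = zpowers g₀ with hGn
  have hD2 : orderOf (g₀ ^ 2) = 2 ^ k := by
    rw [orderOf_pow' _ two_ne_zero, hk]
    have : Nat.gcd (2 ^ (k + 1)) 2 = 2 :=
      Nat.gcd_eq_right (dvd_pow_self 2 (Nat.succ_ne_zero k))
    rw [this, pow_succ]
    simp
  have hcC : Nat.card (zpowers g₀) = 2 ^ (k + 1) := by rw [Nat.card_zpowers, hk]
  have hcD : Nat.card (zpowers (g₀ ^ 2)) = 2 ^ k := by rw [Nat.card_zpowers, hD2]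
  have hpart : Finset.univ.filter (· ∈ zpowers g₀) =
      Finset.univ.filter (· ∈ zpowers (g₀ ^ 2)) ∪ Gn := by
    ext g
    simp only [Finset.mem_filter, Finset.mem_univ, true_and, Finset.mem_union, hGn]
    constructor
    · intro hg
      obtain ⟨j, rfl⟩ := (mem_powers_iff_mem_zpowers).mpr hg
      by_cases h2 : 2 ∣ j
      · left
        obtain ⟨i, rfl⟩ := h2
        show g₀ ^ (2 * i) ∈ _
        rw [pow_mul]
        exact Subgroup.pow_mem _ (mem_zpowers _) _
      · right
        have hco : Nat.Coprime (orderOf g₀) j := by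
          rw [hk]
          exact Nat.Coprime.pow_left _ ((Nat.Prime.coprime_iff_not_dvd Nat.prime_two).mpr h2)
        have ho : orderOf (g₀ ^ j) = orderOf g₀ := hco.orderOf_pow
        apply Subgroup.eq_of_le_of_card_ge
        · show zpowers (g₀ ^ j) ≤ _
          rw [zpowers_le]
          exact Subgroup.pow_mem _ (mem_zpowers _) _
        · show _ ≤ Nat.card (zpowers (g₀ ^ j))
          rw [Nat.card_zpowers, Nat.card_zpowers, ho]
    · rintro (h | h)
      · have hle : zpowers (g₀ ^ 2) ≤ zpowers g₀ := by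
          rw [zpowers_le]
          exact Subgroup.pow_mem _ (mem_zpowers _) _
        exact hle h
      · rw [← h]
        exact mem_zpowers g
  have hdisj : Disjoint (Finset.univ.filter (· ∈ zpowers (g₀ ^ 2))) Gn := by
    rw [Finset.disjoint_left]
    intro g hg hg'
    simp only [Finset.mem_filter, Finset.mem_univ, true_and, hGn] at hg hg'
    have hle : zpowers g₀ ≤ zpowers (g₀ ^ 2) := by
      rw [← hg', zpowers_le]
      exact hg
    have := Subgroup.card_le_of_le hle
    rw [hcC, hcD, pow_succ] at this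
    have hp : 0 < 2 ^ k := by positivity
    omega
  have hcardf : ∀ H : Subgroup G, (Finset.univ.filter (· ∈ H)).card = Nat.card H := by
    intro H
    rw [Nat.card_eq_fintype_card, Fintype.card_subtype]
  have hcardG : Gn.card = 2 ^ k := by
    have h1 := congrArg Finset.card hpart
    rw [Finset.card_union_of_disjoint hdisj, hcardf, hcardf, hcC, hcD, pow_succ] at h1
    omega
  obtain ⟨n₁, hn₁⟩ := sum_normSq_subgroup_nat hχ (zpowers g₀)
  obtain ⟨n₂, hn₂⟩ := sum_normSq_subgroup_nat hχ (zpowers (g₀ ^ 2))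
  rw [hpart, Finset.sum_union hdisj, hn₂, hcC, hcD] at hn₁
  push_cast at hn₁
  have hs : ∑ g ∈ Gn, Complex.normSq (χ g) = (2 : ℝ) ^ k * (2 * n₁ - n₂) := by
    rw [pow_succ] at hn₁
    linear_combination hn₁
  have hg₀ : g₀ ∈ Gn := by simp [hGn]
  have hpos : 0 < ∑ g ∈ Gn, Complex.normSq (χ g) :=
    Finset.sum_pos' (fun _ _ => Complex.normSq_nonneg _)
      ⟨g₀, hg₀, Complex.normSq_pos.mpr h0⟩
  have hp2 : (0 : ℝ) < 2 ^ k := by positivity
  have hpos2 : (0 : ℝ) < 2 * n₁ - n₂ := by
    rw [hs] at hpos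
    exact (pos_iff_pos_of_mul_pos hpos).mp hp2
  have hint : (1 : ℤ) ≤ 2 * n₁ - n₂ := by
    have : (0 : ℤ) < 2 * n₁ - n₂ := by exact_mod_cast hpos2
    omega
  have hreal : (1 : ℝ) ≤ 2 * n₁ - n₂ := by exact_mod_cast hint
  rw [hs, hcardG]
  push_cast
  nlinarith

open Classical in
/-- Over the non-trivial `2`-elements, a character of odd degree has squared norms of average at
least one. -/
theorem card_two_elts_le_sum {χ : G → ℂ} (hχ : IsCharacter G χ) {d : ℕ} (hd : χ 1 = d)
    (hodd : ¬ 2 ∣ d) :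
    (((Finset.univ.filter fun g : G => g ≠ 1 ∧ ∃ k, orderOf g = 2 ^ k).card : ℕ) : ℝ) ≤
      ∑ g ∈ Finset.univ.filter (fun g : G => g ≠ 1 ∧ ∃ k, orderOf g = 2 ^ k),
        Complex.normSq (χ g) := by
  set B := Finset.univ.filter fun g : G => g ≠ 1 ∧ ∃ k, orderOf g = 2 ^ k with hB
  have hsum : 0 ≤ ∑ g ∈ B, (Complex.normSq (χ g) - 1) := by
    rw [← Finset.sum_fiberwise_of_maps_to (s := B) (t := B.image fun g : G => zpowers g)
      (g := fun g : G => zpowers g) (fun x hx => Finset.mem_image_of_mem _ hx)]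
    refine Finset.sum_nonneg fun C hC => ?_
    obtain ⟨g₁, hg₁, rfl⟩ := Finset.mem_image.mp hC
    simp only [hB, Finset.mem_filter, Finset.mem_univ, true_and] at hg₁
    obtain ⟨hg₁1, k, hk⟩ := hg₁
    have hk0 : k ≠ 0 := by
      rintro rfl
      rw [pow_zero, orderOf_eq_one_iff] at hk
      exact hg₁1 hk
    obtain ⟨j, rfl⟩ := Nat.exists_eq_succ_of_ne_zero hk0
    have hfib : B.filter (fun g => zpowers g = zpowers g₁) =
        Finset.univ.filter fun g : G => zpowers g = zpowers g₁ := by
      ext g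
      simp only [hB, Finset.mem_filter, Finset.mem_univ, true_and]
      constructor
      · exact fun h => h.2
      · intro h
        refine ⟨⟨?_, ?_⟩, h⟩
        · rintro rfl
          apply hg₁1
          rw [zpowers_one_eq_bot] at h
          have := mem_zpowers g₁
          rw [← h] at this
          exact Subgroup.mem_bot.mp this
        · refine ⟨j + 1, ?_⟩
          rw [← hk, ← Nat.card_zpowers, ← Nat.card_zpowers, h]
    rw [hfib, Finset.sum_sub_distrib]
    have h0 : χ g₁ ≠ 0 := Cfsg.Agent.Lib.Degree.character_ne_zero_of_pow_prime_pow hχ 2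
      Nat.prime_two g₁ (j + 1) (by rw [← hk, pow_orderOf_eq_one]) d hd hodd
    have h2 := card_gens_le_sum hχ hk h0
    simp only [Finset.sum_const, nsmul_eq_mul, mul_one]
    linarith
  rw [Finset.sum_sub_distrib] at hsum
  simp only [Finset.sum_const, nsmul_eq_mul, mul_one] at hsum
  linarith

open Classical in
/-- A character of degree `9` restricted to a subgroup of order `7`. -/
theorem le_sum_of_order_seven {χ : G → ℂ} (hχ : IsCharacter G χ) (h1 : χ 1 = 9) {x : G}
    (hx : orderOf x = 7) :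
    (91 : ℝ) ≤ ∑ g ∈ Finset.univ.filter (· ∈ zpowers x), Complex.normSq (χ g) := by
  haveI : Fintype (zpowers x) := Fintype.ofFinite _
  have hc := IsCharacter.comp (zpowers x).subtype hχ
  set ψ : zpowers x → ℂ := χ ∘ (zpowers x).subtype with hψ
  have hcl : IsClassFunction (zpowers x) ψ := fun g a => IsCharacter.conj_apply hc g a
  have hn : ∀ μ : IrrCharacter (zpowers x), ∃ n : ℕ, classInner ψ (μ : zpowers x → ℂ) = n :=
    fun μ => classInner_isCharacter_nat hc (IsIrrCharacter.isCharacter μ.2)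
  choose n hn using hn
  have hsum : ∑ μ, n μ = 9 := by
    have h2 := congrFun (classFunction_eq_sum ψ hcl) 1
    simp only [Finset.sum_apply, Pi.smul_apply, smul_eq_mul, hn, BL.deg_one, mul_one] at h2
    have h3 : ψ 1 = 9 := by simp [hψ, h1]
    rw [h3] at h2
    exact_mod_cast h2.symm
  have hcard : Fintype.card (IrrCharacter (zpowers x)) = 7 := by
    have h2 := sum_degree_sq (G := zpowers x)
    simp only [BL.deg_one, one_pow] at h2
    rw [Finset.sum_const, Finset.card_univ, nsmul_eq_mul, mul_one, Nat.card_zpowers, hx] at h2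
    exact_mod_cast h2
  have hinner : classInner ψ ψ = ((∑ μ, n μ ^ 2 : ℕ) : ℂ) := by
    rw [classInner_eq_sum ψ ψ hcl hcl]
    simp only [hn, Complex.conj_natCast]
    push_cast
    exact Finset.sum_congr rfl fun _ _ => by ring
  have hge : 13 ≤ ∑ μ, n μ ^ 2 := by
    have h3 : ∑ μ, ((n μ : ℤ) - 1) * ((n μ : ℤ) - 2) ≥ 0 := by
      refine Finset.sum_nonneg fun μ _ => ?_
      have : ∀ a : ℤ, 0 ≤ (a - 1) * (a - 2) := by
        intro a
        rcases le_or_gt a 1 with h | h
        · nlinarith
        · have : 2 ≤ a := h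
          nlinarith
      exact this _
    have h4 : ∑ μ, ((n μ : ℤ) - 1) * ((n μ : ℤ) - 2) =
        (∑ μ, (n μ : ℤ) ^ 2) - 3 * (∑ μ, (n μ : ℤ)) + 2 * (Fintype.card (IrrCharacter (zpowers x))) := by
      rw [Finset.mul_sum, ← Finset.sum_sub_distrib, ← Finset.card_univ]
      have : (2 : ℤ) * (Finset.univ : Finset (IrrCharacter (zpowers x))).card =
          ∑ μ : IrrCharacter (zpowers x), (2 : ℤ) := by
        simp [mul_comm]
      rw [this, ← Finset.sum_add_distrib]
      exact Finset.sum_congr rfl fun _ _ => by ring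
    rw [h4, hcard] at h3
    have h5 : (∑ μ, (n μ : ℤ)) = 9 := by exact_mod_cast hsum
    rw [h5] at h3
    have h6 : (13 : ℤ) ≤ ∑ μ, (n μ : ℤ) ^ 2 := by push_cast at h3; omega
    exact_mod_cast h6
  have h2 : ∑ g ∈ Finset.univ.filter (· ∈ zpowers x), Complex.normSq (χ g) =
      ∑ h : zpowers x, Complex.normSq (χ h) :=
    Finset.sum_subtype _ (by simp) _
  have h7 : ((∑ h : zpowers x, Complex.normSq (χ h) : ℝ) : ℂ) =
      (7 : ℂ) * ((∑ μ, n μ ^ 2 : ℕ) : ℂ) := by
    rw [← hinner]
    simp only [classInner, Nat.card_zpowers, hx, hψ, Function.comp, Subgroup.coe_subtype,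
      Complex.mul_conj]
    push_cast
    field_simp
  have h8 : (∑ h : zpowers x, Complex.normSq (χ h) : ℝ) = 7 * ((∑ μ, n μ ^ 2 : ℕ) : ℝ) := by
    exact_mod_cast h7
  rw [h2, h8]
  have h9 : (13 : ℝ) ≤ ((∑ μ, n μ ^ 2 : ℕ) : ℝ) := by exact_mod_cast hge
  linarith


open Classical in
/-- A subgroup together with a coset of an involution normalizing it. -/
theorem sum_union_coset {χ₀ ξ : G → ℂ} (hξ : IsCharacter G ξ)
    (hrel : ∀ g, ¬ 7 ∣ orderOf g → χ₀ g = ξ g + 1) (Q : Subgroup G) (h7 : ¬ 7 ∣ Nat.card Q) {t : G}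
    (ht : t * t = 1) (htQ : t ∉ Q) (hnorm : ∀ q ∈ Q, t * q * t ∈ Q) :
    ∃ m : ℕ, ∑ q ∈ Finset.univ.filter (· ∈ Q), χ₀ q + ∑ q ∈ Finset.univ.filter (· ∈ Q), χ₀ (t * q)
      = (2 * Nat.card Q : ℂ) * (m + 1) := by
  have htt : ∀ a : G, t * (t * a) = a := fun a => by rw [← mul_assoc, ht, one_mul]
  let H : Subgroup G :=
    { carrier := {g | g ∈ Q ∨ t * g ∈ Q}
      mul_mem' := by
        intro a b ha hb
        simp only [Set.mem_setOf_eq] at ha hb ⊢
        rcases ha with ha | ha <;> rcases hb with hb | hb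
        · exact Or.inl (Q.mul_mem ha hb)
        · right
          have : t * (a * b) = (t * a * t) * (t * b) := by
            simp only [mul_assoc, htt]
          rw [this]
          exact Q.mul_mem (hnorm a ha) hb
        · right
          rw [← mul_assoc]
          exact Q.mul_mem ha hb
        · left
          have : a * b = (t * (t * a) * t) * (t * b) := by
            simp only [mul_assoc, htt]
          rw [this]
          exact Q.mul_mem (hnorm _ ha) hb
      one_mem' := Or.inl Q.one_mem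
      inv_mem' := by
        intro a ha
        simp only [Set.mem_setOf_eq] at ha ⊢
        rcases ha with ha | ha
        · exact Or.inl (Q.inv_mem ha)
        · right
          have hinv : t⁻¹ = t := inv_eq_of_mul_eq_one_left ht
          have : t * a⁻¹ = t * (t * a)⁻¹ * t := by
            rw [mul_inv_rev, hinv]
            simp only [mul_assoc, ht, mul_one]
          rw [this]
          exact hnorm _ (Q.inv_mem ha) }
  have hH : ∀ g, g ∈ H ↔ g ∈ Q ∨ t * g ∈ Q := fun g => Iff.rfl
  have hpart : Finset.univ.filter (· ∈ H) =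
      Finset.univ.filter (· ∈ Q) ∪ (Finset.univ.filter (· ∈ Q)).image (t * ·) := by
    ext g
    simp only [Finset.mem_filter, Finset.mem_univ, true_and, Finset.mem_union, Finset.mem_image, hH]
    constructor
    · rintro (h | h)
      · exact Or.inl h
      · exact Or.inr ⟨t * g, h, htt g⟩
    · rintro (h | ⟨q, hq, rfl⟩)
      · exact Or.inl h
      · right
        rwa [htt]
  have hdisj : Disjoint (Finset.univ.filter (· ∈ Q)) ((Finset.univ.filter (· ∈ Q)).image (t * ·)) := by
    rw [Finset.disjoint_left]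
    intro g hg hg'
    simp only [Finset.mem_filter, Finset.mem_univ, true_and, Finset.mem_image] at hg hg'
    obtain ⟨q, hq, rfl⟩ := hg'
    apply htQ
    have := Q.mul_mem hg (Q.inv_mem hq)
    simpa using this
  have hinj : Function.Injective (fun q : G => t * q) := mul_right_injective t
  have hcardf : ∀ K : Subgroup G, (Finset.univ.filter (· ∈ K)).card = Nat.card K := by
    intro K
    rw [Nat.card_eq_fintype_card, Fintype.card_subtype]
  have hcH : Nat.card H = 2 * Nat.card Q := by
    rw [← hcardf H, hpart, Finset.card_union_of_disjoint hdisj, Finset.card_image_of_injective _ hinj,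
      hcardf Q]
    ring
  have h7H : ¬ 7 ∣ Nat.card H := by
    rw [hcH]
    intro h
    exact h7 (((by norm_num : Nat.Prime 7).dvd_mul.mp h).resolve_left (by norm_num))
  obtain ⟨m, hm⟩ := sum_subgroup_nat hξ H
  refine ⟨m, ?_⟩
  have hsum : ∑ g ∈ Finset.univ.filter (· ∈ H), χ₀ g =
      (Nat.card H : ℂ) * (m + 1) := by
    have : ∑ g ∈ Finset.univ.filter (· ∈ H), χ₀ g =
        ∑ g ∈ Finset.univ.filter (· ∈ H), (ξ g + 1) := by
      refine Finset.sum_congr rfl fun g hg => hrel g ?_
      simp only [Finset.mem_filter, Finset.mem_univ, true_and] at hg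
      exact fun h => h7H (h.trans (Subgroup.orderOf_dvd_natCard H hg))
    rw [this, Finset.sum_add_distrib, hm, Finset.sum_const, hcardf H]
    simp only [nsmul_eq_mul]
    ring
  rw [hpart, Finset.sum_union hdisj, Finset.sum_image (fun a _ b _ h => hinj h), hcH] at hsum
  rw [hsum]
  push_cast
  ring

/-- The data on the characters in the principal `7`-block. -/
structure Data (χ₀ ξ : G → ℂ) : Prop where
  hξ : IsCharacter G ξ
  hχ : IsCharacter G χ₀
  hrel : ∀ g, ¬ 7 ∣ orderOf g → χ₀ g = ξ g + 1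
  hzero : ∀ g : G, 3 ∣ orderOf g → χ₀ g = 0
  h1 : χ₀ 1 = 9
  hinv : ∀ t : G, t * t = 1 → t ≠ 1 → ∃ a : ℕ, χ₀ t = 9 - 2 * a ∧ Even a ∧ a ≠ 0 ∧ a ≤ 9

theorem three_dvd {a : G} (h9 : a ^ 9 = 1) (h1 : a ≠ 1) : 3 ∣ orderOf a := by
  have hd := orderOf_dvd_of_pow_eq_one h9
  have h2 : orderOf a ≠ 1 := fun h => h1 (orderOf_eq_one_iff.mp h)
  have : ∀ n, n ≤ 9 → n ∣ 9 → n ≠ 1 → 3 ∣ n := by decide
  exact this _ (Nat.le_of_dvd (by norm_num) hd) hd h2

variable {χ₀ ξ : G → ℂ}

open Classical in
theorem sum_central (D : Data χ₀ ξ) (Q : Subgroup G) (h7 : ¬ 7 ∣ Nat.card Q)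
    (hQ9 : ∀ q ∈ Q, q ^ 9 = 1) {t : G} (ht : t * t = 1) (ht1 : t ≠ 1)
    (hc : ∀ q ∈ Q, t * q = q * t) :
    ∃ m : ℕ, 9 + χ₀ t = (2 * Nat.card Q : ℂ) * (m + 1) := by
  have htQ : t ∉ Q := by
    intro h
    have h9 := hQ9 t h
    have : t ^ 9 = t := by
      have h2 : t ^ 2 = 1 := by rw [pow_two, ht]
      calc t ^ 9 = (t ^ 2) ^ 4 * t := by group
        _ = t := by rw [h2]; simp
    exact ht1 (this.symm.trans h9)
  obtain ⟨m, hm⟩ := sum_union_coset D.hξ D.hrel Q h7 ht htQ (fun q hq => by
    rw [hc q hq, mul_assoc, ht, mul_one]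
    exact hq)
  refine ⟨m, ?_⟩
  rw [← hm]
  congr 1
  · rw [Finset.sum_eq_single 1]
    · exact D.h1.symm
    · intro q hq hq1
      simp only [Finset.mem_filter, Finset.mem_univ, true_and] at hq
      exact D.hzero _ (three_dvd (hQ9 q hq) hq1)
    · intro h
      simp at h
  · rw [Finset.sum_eq_single 1]
    · rw [mul_one]
    · intro q hq hq1
      simp only [Finset.mem_filter, Finset.mem_univ, true_and] at hq
      apply D.hzero
      have h2 : (t * q) ^ 2 = q ^ 2 := by
        rw [pow_two, pow_two]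
        calc t * q * (t * q) = (t * t) * (q * q) := by
              rw [mul_assoc, ← mul_assoc q, ← hc q hq]
              simp only [mul_assoc]
          _ = q * q := by rw [ht, one_mul]
      have h3 : 3 ∣ orderOf (q ^ 2) := by
        apply three_dvd
        · rw [← pow_mul, mul_comm, pow_mul, hQ9 q hq, one_pow]
        · intro h
          apply hq1
          have h4 := hQ9 q hq
          calc q = (q ^ 2) ^ 4 * q := by rw [h]; simp
            _ = q ^ 9 := by group
            _ = 1 := h4
      rw [← h2] at h3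
      exact h3.trans (orderOf_pow_dvd _)
    · intro h
      simp at h

theorem pow_three_of_mem {y q : G} (hy : orderOf y = 3) (hq : q ∈ zpowers y) : q ^ 3 = 1 := by
  have h := orderOf_dvd_of_mem_zpowers hq
  rw [hy] at h
  exact orderOf_dvd_iff_pow_eq_one.mp h

theorem comm_of_mem_zpowers {y t q : G} (hyt : y * t = t * y) (hq : q ∈ zpowers y) :
    t * q = q * t := by
  have h : zpowers y ≤ centralizer ({t} : Set G) := by
    rw [zpowers_le, Subgroup.mem_centralizer_singleton_iff]
    exact hyt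
  have h2 := h hq
  rw [Subgroup.mem_centralizer_singleton_iff] at h2
  exact h2.symm

theorem val_inv (D : Data χ₀ ξ) {y t : G} (hy : orderOf y = 3) (ht : t * t = 1) (ht1 : t ≠ 1)
    (hyt : y * t = t * y) : χ₀ t = -3 := by
  obtain ⟨m, hm⟩ := sum_central D (zpowers y) (by rw [Nat.card_zpowers, hy]; norm_num)
    (fun q hq => by
      have := pow_three_of_mem hy hq
      calc q ^ 9 = (q ^ 3) ^ 3 := by group
        _ = 1 := by rw [this, one_pow]) ht ht1 (fun q hq => comm_of_mem_zpowers hyt hq)
  obtain ⟨a, ha, hev, ha0, ha9⟩ := D.hinv t ht ht1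
  rw [Nat.card_zpowers, hy, ha] at hm
  have h1 : (18 : ℂ) = 2 * a + 6 * (m + 1) := by
    push_cast at hm
    linear_combination hm
  have h2 : 18 = 2 * a + 6 * (m + 1) := by exact_mod_cast h1
  obtain ⟨b, rfl⟩ := hev
  have h3 : b + b = 6 := by omega
  rw [ha]
  have h4 : ((b + b : ℕ) : ℂ) = 6 := by rw [h3]; norm_num
  rw [h4]
  norm_num

open Classical in
theorem no_V4 (D : Data χ₀ ξ) {s z y : G} (hy : orderOf y = 3) (hs : s * s = 1) (hz : z * z = 1)
    (hs1 : s ≠ 1) (hz1 : z ≠ 1) (hsz : s ≠ z) (hc : s * z = z * s) (hys : y * s = s * y)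
    (hyz : y * z = z * y) : False := by
  have hoz : orderOf z = 2 := orderOf_eq_prime (by rw [pow_two, hz]) hz1
  have hcardf : (Finset.univ.filter (· ∈ zpowers z)).card = 2 := by
    rw [← hoz, ← Nat.card_zpowers, Nat.card_eq_fintype_card, Fintype.card_subtype]
  have hfil : Finset.univ.filter (· ∈ zpowers z) = {1, z} := by
    refine (Finset.eq_of_subset_of_card_le ?_ ?_).symm
    · intro g hg
      simp only [Finset.mem_insert, Finset.mem_singleton] at hg
      simp only [Finset.mem_filter, Finset.mem_univ, true_and]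
      rcases hg with rfl | rfl
      · exact Subgroup.one_mem _
      · exact mem_zpowers _
    · rw [hcardf, Finset.card_pair hz1.symm]
  have hsQ : s ∉ zpowers z := by
    intro h
    have : s ∈ Finset.univ.filter (· ∈ zpowers z) := by simpa using h
    rw [hfil] at this
    simp only [Finset.mem_insert, Finset.mem_singleton] at this
    rcases this with h | h
    · exact hs1 h
    · exact hsz h
  obtain ⟨m, hm⟩ := sum_union_coset D.hξ D.hrel (zpowers z)
    (by rw [Nat.card_zpowers, hoz]; norm_num) hs hsQ (fun q hq => by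
      have : q ∈ Finset.univ.filter (· ∈ zpowers z) := by simpa using hq
      rw [hfil] at this
      simp only [Finset.mem_insert, Finset.mem_singleton] at this
      rcases this with rfl | rfl
      · simp [hs]
      · rw [hc, mul_assoc, hs, mul_one]
        exact hq)
  rw [hfil, Finset.sum_pair hz1.symm, Finset.sum_pair hz1.symm, mul_one, D.h1,
    val_inv D hy hs hs1 hys, val_inv D hy hz hz1 hyz,
    val_inv D hy (t := s * z) ?_ ?_ ?_, Nat.card_zpowers, hoz] at hm
  · have h1 : (0 : ℂ) = 4 * (m + 1) := by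
      push_cast at hm
      linear_combination hm
    have h2 : 0 = 4 * (m + 1) := by exact_mod_cast h1
    omega
  · calc s * z * (s * z) = (s * s) * (z * z) := by
          rw [mul_assoc, ← mul_assoc z, ← hc]
          simp only [mul_assoc]
      _ = 1 := by rw [hs, hz, one_mul]
  · intro h
    apply hsz
    have := eq_inv_of_mul_eq_one_left h
    rw [this]
    exact inv_eq_of_mul_eq_one_left hz
  · calc y * (s * z) = s * (y * z) := by rw [← mul_assoc, hys, mul_assoc]
      _ = s * z * y := by rw [hyz, mul_assoc]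

theorem conj_pow_invert {t w : G} (ht : t * t = 1) (h : t * w * t = w⁻¹) (r : ℕ) :
    t * w ^ r * t = (w ^ r)⁻¹ := by
  have hinv : t⁻¹ = t := inv_eq_of_mul_eq_one_left ht
  have := conj_pow (a := t) (b := w) (i := r)
  rw [hinv, h, inv_pow] at this
  exact this.symm

open Classical in
theorem no_S3 (D : Data χ₀ ξ) {r t : G} (hr : orderOf r = 3) (ht : t * t = 1) (ht1 : t ≠ 1)
    (hi : t * r * t = r⁻¹) (hv : χ₀ t = -3) : False := by
  have hQ3 : ∀ q ∈ zpowers r, q ^ 3 = 1 := fun q hq => pow_three_of_mem hr hq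
  have hQ9 : ∀ q ∈ zpowers r, q ^ 9 = 1 := fun q hq => by
    calc q ^ 9 = (q ^ 3) ^ 3 := by group
      _ = 1 := by rw [hQ3 q hq, one_pow]
  have hti : ∀ q ∈ zpowers r, t * q * t = q⁻¹ := by
    intro q hq
    obtain ⟨n, rfl⟩ := (mem_powers_iff_mem_zpowers).mpr hq
    exact conj_pow_invert ht hi n
  have htQ : t ∉ zpowers r := by
    intro h
    have h3 := hQ3 t h
    have : t ^ 3 = t := by
      calc t ^ 3 = (t * t) * t := by rw [pow_succ, pow_two]
        _ = t := by rw [ht, one_mul]
    exact ht1 (this.symm.trans h3)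
  obtain ⟨m, hm⟩ := sum_union_coset D.hξ D.hrel (zpowers r)
    (by rw [Nat.card_zpowers, hr]; norm_num) ht htQ (fun q hq => by
      rw [hti q hq]
      exact (zpowers r).inv_mem hq)
  have h1 : ∑ q ∈ Finset.univ.filter (· ∈ zpowers r), χ₀ q = 9 := by
    rw [Finset.sum_eq_single 1]
    · exact D.h1
    · intro q hq hq1
      simp only [Finset.mem_filter, Finset.mem_univ, true_and] at hq
      exact D.hzero _ (three_dvd (hQ9 q hq) hq1)
    · intro h
      simp at h
  have h2 : ∑ q ∈ Finset.univ.filter (· ∈ zpowers r), χ₀ (t * q) =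
      ∑ q ∈ Finset.univ.filter (· ∈ zpowers r), (-3 : ℂ) := by
    refine Finset.sum_congr rfl fun q hq => ?_
    simp only [Finset.mem_filter, Finset.mem_univ, true_and] at hq
    have h3 : t * q = q * t * q⁻¹ := by
      have h4 : t * q⁻¹ * t = q := by
        have := hti _ ((zpowers r).inv_mem hq)
        rwa [inv_inv] at this
      have h5 : t * q⁻¹ = q * t := by
        calc t * q⁻¹ = (t * q⁻¹ * t) * t := by
              rw [mul_assoc, mul_assoc, ht, mul_one]
          _ = q * t := by rw [h4]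
      have h6 : t * q = q⁻¹ * t := by
        calc t * q = (t * q * t) * t := by
              rw [mul_assoc, mul_assoc, ht, mul_one]
          _ = q⁻¹ * t := by rw [hti q hq]
      have h7 : q⁻¹ = q * q := by
        have h8 := hQ3 q hq
        apply inv_eq_of_mul_eq_one_right
        rw [← mul_assoc, ← pow_two, ← pow_succ]
        exact h8
      rw [h6, mul_assoc q, h5, h7, mul_assoc]
    rw [h3, IsCharacter.conj_apply D.hχ, hv]
  have h3 : (Finset.univ.filter (· ∈ zpowers r)).card = 3 := by
    rw [← hr, ← Nat.card_zpowers, Nat.card_eq_fintype_card, Fintype.card_subtype]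
  rw [h1, h2, Finset.sum_const, h3, Nat.card_zpowers, hr] at hm
  have h4 : (0 : ℂ) = 6 * (m + 1) := by
    push_cast at hm
    simp only [nsmul_eq_mul] at hm
    push_cast at hm
    linear_combination hm
  have h5 : 0 = 6 * (m + 1) := by exact_mod_cast h4
  omega

/-- Divisors of `4032`. -/
theorem dvd_nine_of_dvd {n : ℕ} (h : n ∣ 4032) (h2 : n % 2 = 1) (h7 : ¬ 7 ∣ n) : n ∣ 9 := by
  have hc2 : Nat.Coprime n 2 := by
    rw [Nat.coprime_comm, Nat.Prime.coprime_iff_not_dvd Nat.prime_two]
    omega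
  have hc7 : Nat.Coprime n 7 := by
    rw [Nat.coprime_comm, Nat.Prime.coprime_iff_not_dvd (by norm_num)]
    exact h7
  have hc : Nat.Coprime n (2 ^ 6 * 7) := Nat.Coprime.mul_right (hc2.pow_right 6) hc7
  exact hc.dvd_of_dvd_mul_right (by simpa using h : n ∣ 9 * (2 ^ 6 * 7))

theorem three_dvd_of_dvd {n : ℕ} (h : n ∣ 4032) (h2 : n % 2 = 1) (h7 : ¬ 7 ∣ n) (h1 : n ≠ 1) :
    3 ∣ n := by
  have h9 := dvd_nine_of_dvd h h2 h7
  have : ∀ n, n ≤ 9 → n ∣ 9 → n ≠ 1 → 3 ∣ n := by decide
  exact this _ (Nat.le_of_dvd (by norm_num) h9) h9 h1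

theorem two_pow_of_dvd {n : ℕ} (h : n ∣ 4032) (h3 : ¬ 3 ∣ n) (h7 : ¬ 7 ∣ n) : ∃ k, n = 2 ^ k := by
  have hc3 : Nat.Coprime n 3 := by
    rw [Nat.coprime_comm, Nat.Prime.coprime_iff_not_dvd (by norm_num)]
    exact h3
  have hc7 : Nat.Coprime n 7 := by
    rw [Nat.coprime_comm, Nat.Prime.coprime_iff_not_dvd (by norm_num)]
    exact h7
  have hc : Nat.Coprime n (3 ^ 2 * 7) := Nat.Coprime.mul_right (hc3.pow_right 2) hc7
  have h64 : n ∣ 2 ^ 6 := hc.dvd_of_dvd_mul_right (by simpa using h : n ∣ 2 ^ 6 * (3 ^ 2 * 7))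
  obtain ⟨k, -, hk⟩ := (Nat.dvd_prime_pow Nat.prime_two).mp h64
  exact ⟨k, hk⟩

theorem no_inv (D : Data χ₀ ξ) (hG : Nat.card G = 4032)
    (hC7 : ∀ h : G, orderOf h = 7 → Nat.card (centralizer ({h} : Set G)) = 7)
    (hQ : ∀ Q : Sylow 3 G, Nat.card (Q : Subgroup G) = 9) {y t : G} (hy : orderOf y = 3)
    (ht : t * t = 1) (ht1 : t ≠ 1) (hyt : y * t = t * y) : False := by
  haveI : Fact (Nat.Prime 3) := ⟨by norm_num⟩
  have hv := val_inv D hy ht ht1 hyt
  have hpg : IsPGroup 3 (zpowers y) :=
    IsPGroup.of_card (n := 1) (by rw [Nat.card_zpowers, hy, pow_one])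
  obtain ⟨Q, hQy⟩ := hpg.exists_le_sylow
  have hQc := hQ Q
  have hcomm : ∀ a b : (Q : Subgroup G), a * b = b * a :=
    IsPGroup.commutative_of_card_eq_prime_sq (p := 3) (by rw [hQc]; norm_num)
  have hyQ : y ∈ (Q : Subgroup G) := hQy (mem_zpowers y)
  have hQy' : ∀ q ∈ (Q : Subgroup G), q * y = y * q := fun q hq =>
    congrArg Subtype.val (hcomm ⟨q, hq⟩ ⟨y, hyQ⟩)
  have hQ9 : ∀ q ∈ (Q : Subgroup G), q ^ 9 = 1 := fun q hq => by
    have := Subgroup.orderOf_dvd_natCard (Q : Subgroup G) hq
    rw [hQc] at this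
    exact orderOf_dvd_iff_pow_eq_one.mp this
  by_cases hall : ∀ q ∈ (Q : Subgroup G), t * q = q * t
  · obtain ⟨m, hm⟩ := sum_central D (Q : Subgroup G) (by rw [hQc]; norm_num) hQ9 ht ht1 hall
    rw [hv, hQc] at hm
    have h1 : (6 : ℂ) = 18 * (m + 1) := by
      push_cast at hm
      linear_combination hm
    have h2 : 6 = 18 * (m + 1) := by exact_mod_cast h1
    omega
  · push Not at hall
    obtain ⟨q, hq, hqt⟩ := hall
    have hinvq : ∀ a : G, q * a * q⁻¹ * (q * a * q⁻¹) = q * (a * a) * q⁻¹ := fun a => by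
      simp only [mul_assoc, inv_mul_cancel_left]
    obtain ⟨t', ht'⟩ : ∃ t', t' = q * t * q⁻¹ := ⟨_, rfl⟩
    have ht't' : t' * t' = 1 := by
      rw [ht', hinvq, ht]
      simp
    have ht'1 : t' ≠ 1 := by
      intro h
      apply ht1
      have : q * t * q⁻¹ = 1 := ht'.symm.trans h
      have h2 : q * t = q := by
        calc q * t = (q * t * q⁻¹) * q := by group
          _ = q := by rw [this, one_mul]
      simpa using h2
    have htne : t' ≠ t := by
      intro h
      apply hqt
      have : q * t * q⁻¹ = t := ht'.symm.trans h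
      calc t * q = (q * t * q⁻¹) * q := by rw [this]
        _ = q * t := by group
    have hyt' : y * t' = t' * y := by
      have h1 := hQy' q hq
      have h2 : y * q⁻¹ = q⁻¹ * y := by
        calc y * q⁻¹ = q⁻¹ * (q * y) * q⁻¹ := by group
          _ = q⁻¹ * (y * q) * q⁻¹ := by rw [h1]
          _ = q⁻¹ * y := by group
      rw [ht']
      calc y * (q * t * q⁻¹) = (y * q) * t * q⁻¹ := by group
        _ = q * (y * t) * q⁻¹ := by rw [← h1]; group
        _ = q * t * (y * q⁻¹) := by rw [hyt]; group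
        _ = q * t * q⁻¹ * y := by rw [h2]; group
    obtain ⟨w, hw⟩ : ∃ w, w = t * t' := ⟨_, rfl⟩
    have hwinv : w⁻¹ = t' * t := by
      rw [hw, mul_inv_rev, inv_eq_of_mul_eq_one_left ht, inv_eq_of_mul_eq_one_left ht't']
    have hw1 : w ≠ 1 := by
      intro h
      apply htne
      have : t * t' = 1 := hw.symm.trans h
      rw [← inv_eq_of_mul_eq_one_left ht]
      exact (inv_eq_of_mul_eq_one_right this).symm
    have hyw : y * w = w * y := by
      rw [hw, ← mul_assoc, hyt, mul_assoc, hyt', mul_assoc]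
    have hcyw : Commute y w := hyw
    have hi1 : t * w * t = w⁻¹ := by
      rw [hwinv, hw, ← mul_assoc, ht, one_mul]
    have hi2 : t' * w * t' = w⁻¹ := by
      rw [hwinv, hw, mul_assoc, mul_assoc, ht't', mul_one]
    rcases Nat.even_or_odd (orderOf w) with hev | hodd
    · obtain ⟨r, hr⟩ := hev
      have hn0 : orderOf w ≠ 0 := (orderOf_pos w).ne'
      have hr0 : r ≠ 0 := by omega
      have hzz : w ^ r * w ^ r = 1 := by
        rw [← pow_add, ← hr, pow_orderOf_eq_one]
      have hz1 : w ^ r ≠ 1 := pow_ne_one_of_lt_orderOf hr0 (by omega)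
      have hzinv : (w ^ r)⁻¹ = w ^ r := inv_eq_of_mul_eq_one_left hzz
      have hyz : y * w ^ r = w ^ r * y := (hcyw.pow_right r)
      have htz : t * w ^ r = w ^ r * t := by
        have h1 := conj_pow_invert ht hi1 r
        rw [hzinv] at h1
        calc t * w ^ r = (t * w ^ r * t) * t := by rw [mul_assoc, mul_assoc, ht, mul_one]
          _ = w ^ r * t := by rw [h1]
      have ht'z : t' * w ^ r = w ^ r * t' := by
        have h1 := conj_pow_invert ht't' hi2 r
        rw [hzinv] at h1
        calc t' * w ^ r = (t' * w ^ r * t') * t' := by rw [mul_assoc, mul_assoc, ht't', mul_one]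
          _ = w ^ r * t' := by rw [h1]
      by_cases htzz : t = w ^ r
      · exact no_V4 D hy ht't' hzz ht'1 hz1 (fun h => htne (h.trans htzz.symm)) ht'z hyt' hyz
      · exact no_V4 D hy ht hzz ht1 hz1 htzz htz hyt hyz
    · have hn0 : orderOf w ≠ 0 := (orderOf_pos w).ne'
      have hn1 : orderOf w ≠ 1 := fun h => hw1 (orderOf_eq_one_iff.mp h)
      have hnd : orderOf w ∣ 4032 := by
        rw [← hG]
        exact orderOf_dvd_natCard w
      have hn7 : ¬ 7 ∣ orderOf w := by
        intro h7
        have ho := orderOf_pow_orderOf_div hn0 h7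
        have hcc : y ∈ centralizer ({w ^ (orderOf w / 7)} : Set G) := by
          rw [Subgroup.mem_centralizer_singleton_iff]
          exact (hcyw.pow_right _)
        have := Subgroup.orderOf_dvd_natCard _ hcc
        rw [hC7 _ ho, hy] at this
        norm_num at this
      have h3 := three_dvd_of_dvd hnd (Nat.odd_iff.mp hodd) hn7 hn1
      have ho := orderOf_pow_orderOf_div hn0 h3
      exact no_S3 D ho ht ht1 (conj_pow_invert ht hi1 _) hv

theorem not_two_dvd (D : Data χ₀ ξ) (hG : Nat.card G = 4032)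
    (hC7 : ∀ h : G, orderOf h = 7 → Nat.card (centralizer ({h} : Set G)) = 7)
    (hQ : ∀ Q : Sylow 3 G, Nat.card (Q : Subgroup G) = 9) {g : G} (h3 : 3 ∣ orderOf g) :
    ¬ 2 ∣ orderOf g := by
  intro h2
  have hn0 : orderOf g ≠ 0 := (orderOf_pos g).ne'
  have ho2 := orderOf_pow_orderOf_div hn0 h2
  have ho3 := orderOf_pow_orderOf_div hn0 h3
  have ht : g ^ (orderOf g / 2) * g ^ (orderOf g / 2) = 1 := by
    rw [← pow_add, ← two_mul, Nat.mul_div_cancel' h2, pow_orderOf_eq_one]
  have ht1 : g ^ (orderOf g / 2) ≠ 1 := by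
    intro h
    rw [h, orderOf_one] at ho2
    omega
  exact no_inv D hG hC7 hQ ho3 ht ht1 (Commute.pow_pow_self _ _ _)


open Classical in
/-- The final count. -/
theorem main_count (D : Data χ₀ ξ) (hG : Nat.card G = 4032)
    (hC7 : ∀ h : G, orderOf h = 7 → Nat.card (centralizer ({h} : Set G)) = 7)
    (hQ : ∀ Q : Sylow 3 G, Nat.card (Q : Subgroup G) = 9)
    (hP : ∀ P : Sylow 7 G, Nat.card (P : Subgroup G) = 7)
    (hn7 : Nat.card (Sylow 7 G) = 288) (hn3 : Nat.card (Sylow 3 G) ≤ 112)
    (hirr : ∑ g : G, Complex.normSq (χ₀ g) = 4032) : False := by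
  haveI : Fact (Nat.Prime 3) := ⟨by norm_num⟩
  haveI : Fact (Nat.Prime 7) := ⟨by norm_num⟩
  haveI : Fintype (Sylow 7 G) := Fintype.ofFinite _
  haveI : Fintype (Sylow 3 G) := Fintype.ofFinite _
  set F : G → ℝ := fun g => Complex.normSq (χ₀ g) with hF
  have hcardf : ∀ K : Subgroup G, (Finset.univ.filter (· ∈ K)).card = Nat.card K := by
    intro K
    rw [Nat.card_eq_fintype_card, Fintype.card_subtype]
  have herase : ∀ K : Subgroup G, Finset.univ.filter (fun g => g ∈ K ∧ g ≠ 1) =
      (Finset.univ.filter (· ∈ K)).erase 1 := by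
    intro K
    ext g
    simp only [Finset.mem_filter, Finset.mem_univ, true_and, Finset.mem_erase]
    exact and_comm
  have hcard1 : ∀ K : Subgroup G, (Finset.univ.filter (fun g => g ∈ K ∧ g ≠ 1)).card + 1 =
      Nat.card K := by
    intro K
    rw [herase, Finset.card_erase_of_mem (by simp [K.one_mem]), hcardf]
    have : 0 < Nat.card K := Nat.card_pos
    omega
  -- order of non-identity elements of Sylow 7-subgroups
  have hord7 : ∀ (P : Sylow 7 G) (g : G), g ∈ (P : Subgroup G) → g ≠ 1 → orderOf g = 7 := by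
    intro P g hg h1
    have h := Subgroup.orderOf_dvd_natCard (P : Subgroup G) hg
    rw [hP P] at h
    rcases (Nat.dvd_prime (by norm_num : Nat.Prime 7)).mp h with h' | h'
    · exact absurd (orderOf_eq_one_iff.mp h') h1
    · exact h'
  have heqz : ∀ (P : Sylow 7 G) (g : G), g ∈ (P : Subgroup G) → g ≠ 1 →
      zpowers g = (P : Subgroup G) := by
    intro P g hg h1
    apply Subgroup.eq_of_le_of_card_ge
    · rwa [zpowers_le]
    · rw [Nat.card_zpowers, hord7 P g hg h1, hP P]
  set T₇ : Finset G := (Finset.univ : Finset (Sylow 7 G)).biUnion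
    fun P => Finset.univ.filter (fun g => g ∈ (P : Subgroup G) ∧ g ≠ 1) with hT₇
  have hdisj7 : ((Finset.univ : Finset (Sylow 7 G)) : Set (Sylow 7 G)).PairwiseDisjoint
      fun P => Finset.univ.filter (fun g => g ∈ (P : Subgroup G) ∧ g ≠ 1) := by
    intro P _ P' _ hne
    show Disjoint _ _
    rw [Finset.disjoint_left]
    intro g hg hg'
    simp only [Finset.mem_filter, Finset.mem_univ, true_and] at hg hg'
    apply hne
    apply Sylow.ext
    rw [← heqz P g hg.1 hg.2, ← heqz P' g hg'.1 hg'.2]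
  have hcT₇ : T₇.card = 1728 := by
    rw [hT₇, Finset.card_biUnion hdisj7]
    have : ∀ P ∈ (Finset.univ : Finset (Sylow 7 G)),
        (Finset.univ.filter (fun g => g ∈ (P : Subgroup G) ∧ g ≠ 1)).card = 6 := by
      intro P _
      have := hcard1 (P : Subgroup G)
      rw [hP P] at this
      omega
    rw [Finset.sum_congr rfl this, Finset.sum_const, Finset.card_univ, ← Nat.card_eq_fintype_card, hn7]
    norm_num
  have hsT₇ : (2880 : ℝ) ≤ ∑ g ∈ T₇, F g := by
    rw [hT₇, Finset.sum_biUnion hdisj7]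
    have : ∀ P ∈ (Finset.univ : Finset (Sylow 7 G)),
        (10 : ℝ) ≤ ∑ g ∈ Finset.univ.filter (fun g => g ∈ (P : Subgroup G) ∧ g ≠ 1), F g := by
      intro P _
      obtain ⟨x, hx, hz⟩ := Lib.SmallSimple.BA.exists_gen P (hP P)
      have h1' := le_sum_of_order_seven D.hχ D.h1 hx
      have h1 : (91 : ℝ) ≤ ∑ g ∈ Finset.univ.filter (· ∈ (P : Subgroup G)), F g := by
        refine le_trans h1' (le_of_eq (Finset.sum_congr ?_ fun _ _ => rfl))
        ext g
        simp [hz]
      have h2 : ∑ g ∈ Finset.univ.filter (· ∈ (P : Subgroup G)), F g =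
          F 1 + ∑ g ∈ Finset.univ.filter (fun g => g ∈ (P : Subgroup G) ∧ g ≠ 1), F g := by
        rw [herase, Finset.add_sum_erase _ _ (by simp [(P : Subgroup G).one_mem])]
      have h3 : F 1 = 81 := by
        simp only [hF, D.h1]
        simp [Complex.normSq_apply]
        norm_num
      rw [h3] at h2
      simp only [hF] at h2 ⊢
      linarith
    have h2 := Finset.card_nsmul_le_sum _ _ _ this
    rw [Finset.card_univ, ← Nat.card_eq_fintype_card, hn7] at h2
    norm_num at h2
    linarith
  set B : Finset G := Finset.univ.filter fun g : G => g ≠ 1 ∧ ∃ k, orderOf g = 2 ^ k with hB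
  have hsB : ((B.card : ℕ) : ℝ) ≤ ∑ g ∈ B, F g :=
    card_two_elts_le_sum D.hχ (d := 9) (by rw [D.h1]; norm_num) (by norm_num)
  set T₃ : Finset G := (Finset.univ : Finset (Sylow 3 G)).biUnion
    fun Q => Finset.univ.filter (fun g => g ∈ (Q : Subgroup G) ∧ g ≠ 1) with hT₃
  have hcT₃ : T₃.card ≤ 896 := by
    have h1 : T₃.card ≤ ∑ Q : Sylow 3 G,
        (Finset.univ.filter (fun g => g ∈ (Q : Subgroup G) ∧ g ≠ 1)).card := Finset.card_biUnion_le
    have h2 : ∀ Q ∈ (Finset.univ : Finset (Sylow 3 G)),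
        (Finset.univ.filter (fun g => g ∈ (Q : Subgroup G) ∧ g ≠ 1)).card = 8 := by
      intro Q _
      have := hcard1 (Q : Subgroup G)
      rw [hQ Q] at this
      omega
    rw [Finset.sum_congr rfl h2, Finset.sum_const, Finset.card_univ, ← Nat.card_eq_fintype_card] at h1
    simp only [smul_eq_mul] at h1
    omega
  -- the covering
  have hcover : ∀ g : G, g ∈ T₇ ∨ g ∈ B ∨ g = 1 ∨ g ∈ T₃ := by
    intro g
    by_cases hg1 : g = 1
    · exact Or.inr (Or.inr (Or.inl hg1))
    have hn0 : orderOf g ≠ 0 := (orderOf_pos g).ne'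
    have hnd : orderOf g ∣ 4032 := by
      rw [← hG]
      exact orderOf_dvd_natCard g
    by_cases h7 : 7 ∣ orderOf g
    · left
      have ho := orderOf_pow_orderOf_div hn0 h7
      set h := g ^ (orderOf g / 7) with hh
      have hpg : IsPGroup 7 (zpowers h) :=
        IsPGroup.of_card (n := 1) (by rw [Nat.card_zpowers, ho, pow_one])
      obtain ⟨P, hPh⟩ := hpg.exists_le_sylow
      have hC : centralizer ({h} : Set G) = zpowers h := by
        symm
        apply Subgroup.eq_of_le_of_card_ge
        · rw [zpowers_le, Subgroup.mem_centralizer_singleton_iff]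
        · rw [hC7 h ho, Nat.card_zpowers, ho]
      have hgC : g ∈ centralizer ({h} : Set G) := by
        rw [Subgroup.mem_centralizer_singleton_iff]
        exact (Commute.pow_self g _).symm
      rw [hC] at hgC
      rw [hT₇, Finset.mem_biUnion]
      exact ⟨P, Finset.mem_univ _, by simpa using ⟨hPh hgC, hg1⟩⟩
    · right
      by_cases h3 : 3 ∣ orderOf g
      · right
        right
        have h2 := not_two_dvd D hG hC7 hQ h3
        have h9 := dvd_nine_of_dvd hnd (by omega) h7
        have hg9 : g ^ 3 ^ 2 = 1 := orderOf_dvd_iff_pow_eq_one.mp h9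
        have hpg : IsPGroup 3 (zpowers g) := by
          obtain ⟨k, -, hk⟩ := (Nat.dvd_prime_pow (by norm_num : Nat.Prime 3)).mp
            (by simpa using h9 : orderOf g ∣ 3 ^ 2)
          exact IsPGroup.of_card (n := k) (by rw [Nat.card_zpowers, hk])
        obtain ⟨Q, hQg⟩ := hpg.exists_le_sylow
        rw [hT₃, Finset.mem_biUnion]
        exact ⟨Q, Finset.mem_univ _, by simpa using ⟨hQg (mem_zpowers g), hg1⟩⟩
      · left
        obtain ⟨k, hk⟩ := two_pow_of_dvd hnd h3 h7
        rw [hB]
        simp only [Finset.mem_filter, Finset.mem_univ, true_and]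
        exact ⟨hg1, k, hk⟩
  have hcount : 4032 ≤ T₇.card + B.card + 1 + T₃.card := by
    have h1 : (Finset.univ : Finset G) ⊆ T₇ ∪ B ∪ {1} ∪ T₃ := by
      intro g _
      simp only [Finset.mem_union, Finset.mem_singleton]
      rcases hcover g with h | h | h | h
      · exact Or.inl (Or.inl (Or.inl h))
      · exact Or.inl (Or.inl (Or.inr h))
      · exact Or.inl (Or.inr h)
      · exact Or.inr h
    have h2 := Finset.card_le_card h1
    rw [Finset.card_univ, ← Nat.card_eq_fintype_card, hG] at h2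
    have h3 := Finset.card_union_le (T₇ ∪ B ∪ {1}) T₃
    have h4 := Finset.card_union_le (T₇ ∪ B) {1}
    have h5 := Finset.card_union_le T₇ B
    simp only [Finset.card_singleton] at h4
    omega
  have hBc : 1407 ≤ B.card := by omega
  -- disjointness
  have hd1 : Disjoint T₇ B := by
    rw [Finset.disjoint_left]
    intro g hg hg'
    rw [hT₇, Finset.mem_biUnion] at hg
    obtain ⟨P, -, hg⟩ := hg
    simp only [Finset.mem_filter, Finset.mem_univ, true_and] at hg
    rw [hB] at hg'
    simp only [Finset.mem_filter, Finset.mem_univ, true_and] at hg'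
    obtain ⟨-, k, hk⟩ := hg'
    rw [hord7 P g hg.1 hg.2] at hk
    have : 7 ∣ 2 ^ k := by rw [← hk]
    have := (by norm_num : Nat.Prime 7).dvd_of_dvd_pow this
    omega
  have hd2 : Disjoint (T₇ ∪ B) {1} := by
    rw [Finset.disjoint_singleton_right]
    intro h
    rw [Finset.mem_union] at h
    rcases h with h | h
    · rw [hT₇, Finset.mem_biUnion] at h
      obtain ⟨P, -, h⟩ := h
      simp at h
    · rw [hB] at h
      simp at h
  have hsum : ∑ g ∈ T₇ ∪ B ∪ {1}, F g ≤ ∑ g : G, F g :=
    Finset.sum_le_sum_of_subset_of_nonneg (Finset.subset_univ _)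
      (fun _ _ _ => Complex.normSq_nonneg _)
  rw [Finset.sum_union hd2, Finset.sum_union hd1, Finset.sum_singleton] at hsum
  have h3 : F 1 = 81 := by
    simp only [hF, D.h1]
    simp [Complex.normSq_apply]
    norm_num
  have h4 : (1407 : ℝ) ≤ (B.card : ℝ) := by exact_mod_cast hBc
  have h5 : ∑ g : G, F g = 4032 := hirr
  rw [h5, h3] at hsum
  linarith

end Cfsg.Agent.Lib.SmallSimple.O4032
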