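import Mathlib
import Cfsg.Agent.Lib.SmallSimple.Recognize

/-! Simple groups of order 2448, 3420 and 6072. -/

set_option autoImplicit false

namespace Cfsg.Agent.Lib.SmallSimple

theorem check17 : CheckP 17 8 [0, 0, 14, 1, 12, 5, 15, 11, 10, 2, 3, 7, 13, 4, 9, 6, 8] 0 := by decide +kernel

theorem tbl17 : TblOK 17 [0, 0, 14, 1, 12, 5, 15, 11, 10, 2, 3, 7, 13, 4, 9, 6, 8] ((3 : ZMod 17) ^ 2) 3 := by
  decide +kernel

theorem three_ne_zero_17 : (3 : ZMod 17) ≠ 0 := by decide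

theorem psl_of_card_2448 {G : Type*} [Group G] [Finite G] [IsSimpleGroup G] (h : Nat.card G = 2448) :
    Nonempty (G ≃* Matrix.ProjectiveSpecialLinearGroup (Fin 2) (ZMod 17)) := by
  haveI : Fact (Nat.Prime 17) := ⟨by norm_num⟩
  exact psl_of_simple_order (m := 8) (M := 144) (not_comm_of_not_prime (by rw [h]; norm_num))
    (by rw [h]) (by rw [h]) (by norm_num) (by decide +kernel) (by norm_num) 3 3 three_ne_zero_17 three_ne_zero_17 _ tbl17 check17

theorem check19 : CheckP 19 9 [0, 0, 1, 13, 2, 16, 14, 6, 3, 8, 17, 12, 15, 5, 7, 11, 4, 10, 9] 0 := by decide +kernel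

theorem tbl19 : TblOK 19 [0, 0, 1, 13, 2, 16, 14, 6, 3, 8, 17, 12, 15, 5, 7, 11, 4, 10, 9] ((2 : ZMod 19) ^ 2) 2 := by
  decide +kernel

theorem two_ne_zero_19 : (2 : ZMod 19) ≠ 0 := by decide

theorem psl_of_card_3420 {G : Type*} [Group G] [Finite G] [IsSimpleGroup G] (h : Nat.card G = 3420) :
    Nonempty (G ≃* Matrix.ProjectiveSpecialLinearGroup (Fin 2) (ZMod 19)) := by
  haveI : Fact (Nat.Prime 19) := ⟨by norm_num⟩
  exact psl_of_simple_order (m := 9) (M := 180) (not_comm_of_not_prime (by rw [h]; norm_num))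
    (by rw [h]) (by rw [h]) (by norm_num) (by decide +kernel) (by norm_num) 2 2 two_ne_zero_19 two_ne_zero_19 _ tbl19 check19

theorem check23 : CheckP 23 11 [0, 0, 2, 16, 4, 1, 18, 19, 6, 10, 3, 9, 20, 14, 21, 17, 8, 7, 12, 15, 5, 13, 11] 0 := by
  decide +kernel

theorem tbl23 : TblOK 23 [0, 0, 2, 16, 4, 1, 18, 19, 6, 10, 3, 9, 20, 14, 21, 17, 8, 7, 12, 15, 5, 13, 11]
    ((5 : ZMod 23) ^ 2) 5 := by
  decide +kernel

theorem five_ne_zero_23 : (5 : ZMod 23) ≠ 0 := by decide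

theorem psl_of_card_6072 {G : Type*} [Group G] [Finite G] [IsSimpleGroup G] (h : Nat.card G = 6072) :
    Nonempty (G ≃* Matrix.ProjectiveSpecialLinearGroup (Fin 2) (ZMod 23)) := by
  haveI : Fact (Nat.Prime 23) := ⟨by norm_num⟩
  exact psl_of_simple_order (m := 11) (M := 264) (not_comm_of_not_prime (by rw [h]; norm_num))
    (by rw [h]) (by rw [h]) (by norm_num) (by decide +kernel) (by norm_num) 5 5 five_ne_zero_23 five_ne_zero_23 _ tbl23 check23

end Cfsg.Agent.Lib.SmallSimple
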