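import Mathlib
import Cfsg.Agent.Lib.SmallSimple.Recognize

/-! Simple groups of order 168. -/

set_option autoImplicit false

namespace Cfsg.Agent.Lib.SmallSimple

open OnePoint

theorem check7 : CheckP 7 3 [0, 0, 2, 1, 4, 5, 3] 2 := by decide +kernel

theorem tbl7 : TblOK 7 [0, 0, 2, 1, 4, 5, 3] ((3 : ZMod 7) ^ 2) 3 := by decide +kernel

theorem three_ne_zero_7 : (3 : ZMod 7) ≠ 0 := by decide

theorem three_sq_7 : (3 : ZMod 7) ^ 2 = 2 := by decide

theorem cube_roots_7 : ∀ a : ZMod 7, a ^ 3 = 1 → a = 1 ∨ a = 2 ∨ a = 4 := by decide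

theorem two_sub_one_7 : ∀ i : ZMod 7, 2 * i = i → i = 0 := by decide

theorem two_cube_7 : ∀ i : ZMod 7, 2 * (2 * (2 * i)) = i := by decide

theorem one_ne_two_7 : (1 : ZMod 7) ≠ 2 * 1 := by decide

section

variable {G : Type*} [Group G] [Finite G] [IsSimpleGroup G]

/-- In a simple group of order 168 the swap does not centralize the element of order 3. -/
theorem swap_not_centralize (h : Nat.card G = 168) [Fact (Nat.Prime 7)] (L : LineAction G 7) (t y : G)
    (htinf : L.ρ t ∞ = ((0 : ZMod 7) : OnePoint (ZMod 7)))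
    (ht0 : L.ρ t ((0 : ZMod 7) : OnePoint (ZMod 7)) = ∞) (hyi : L.ρ y ∞ = ∞)
    (hy : ∀ i : ZMod 7, L.ρ y (i : OnePoint (ZMod 7)) = ((2 * i : ZMod 7) : OnePoint (ZMod 7)))
    (hb : ∀ i : ZMod 7, L.ρ (t * y * t⁻¹) (i : OnePoint (ZMod 7)) = ((2 * i : ZMod 7) : OnePoint (ZMod 7))) :
    False := by
  classical
  have hnc : ¬ IsMulCommutative G := not_comm_of_not_prime (by rw [h]; norm_num)
  haveI : Fact (Nat.Prime 3) := ⟨by norm_num⟩
  have hty : t * y * t⁻¹ = y := by
    apply L.eq_of_agree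
    · simp only [map_mul, Equiv.Perm.mul_apply]
      rw [L.swap_inv_infty htinf ht0, hy, mul_zero, ht0, hyi]
    · intro i
      rw [hb, hy]
  have hcommt : t * y = y * t := by
    calc t * y = (t * y * t⁻¹) * t := by group
      _ = y * t := by rw [hty]
  have hy3 : y ^ 3 = 1 := by
    apply L.eq_of_agree
    · rw [map_pow]
      simp [pow_succ, hyi]
    · intro i
      rw [map_pow]
      simp only [pow_succ, pow_zero, one_mul, Equiv.Perm.mul_apply, hy, map_one, Equiv.Perm.one_apply]
      rw [OnePoint.coe_eq_coe]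
      exact two_cube_7 i
  have hy1 : y ≠ 1 := by
    rintro rfl
    have h1 := hy 1
    rw [map_one, Equiv.Perm.one_apply, OnePoint.coe_eq_coe] at h1
    exact one_ne_two_7 h1
  have hyo : orderOf y = 3 := orderOf_eq_prime hy3 hy1
  have hP3 : ∃ P : Sylow 3 G, Nat.card (P : Subgroup G) = 3 := by
    obtain ⟨P⟩ : Nonempty (Sylow 3 G) := inferInstance
    exact ⟨P, card_sylow_of_exact 56 (by norm_num) (by rw [h]) P⟩
  let S : Sylow 3 G := sylowOf hP3 y hyo
  have hS : (S : Subgroup G) = Subgroup.zpowers y := rfl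
  -- the points fixed by `y`
  have hfixed : ∀ u : OnePoint (ZMod 7), L.ρ y u = u → u = ∞ ∨ u = ((0 : ZMod 7) : OnePoint (ZMod 7)) := by
    intro u hu
    cases u with
    | infty => exact Or.inl rfl
    | coe i =>
      rw [hy, OnePoint.coe_eq_coe] at hu
      right
      rw [two_sub_one_7 i hu]
  -- elements fixing `∞` and `0` are powers of `y`
  have hG' : Nat.card G = (7 + 1) * 7 * 3 := by rw [h]
  have hD : ∀ g : G, L.ρ g ∞ = ∞ → L.ρ g ((0 : ZMod 7) : OnePoint (ZMod 7)) = ((0 : ZMod 7) : OnePoint (ZMod 7)) →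
      g * y = y * g := by
    intro g h1 h2
    obtain ⟨a, ha1, ha0, ha⟩ := L.fix_two hG' h1 h2
    have hg : g = 1 ∨ g = y ∨ g = y * y := by
      rcases cube_roots_7 a ha1 with rfl | rfl | rfl
      · left
        apply L.eq_of_agree
        · simp [h1]
        · intro i
          rw [ha]
          simp
      · right; left
        apply L.eq_of_agree
        · rw [h1, hyi]
        · intro i
          rw [ha, hy]
      · right; right
        apply L.eq_of_agree
        · rw [h1, map_mul, Equiv.Perm.mul_apply, hyi, hyi]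
        · intro i
          rw [ha, map_mul, Equiv.Perm.mul_apply, hy, hy, OnePoint.coe_eq_coe]
          ring
    rcases hg with rfl | rfl | rfl
    · simp
    · rfl
    · group
  have hdvd : 3 ∣ Nat.card G := by rw [h]; norm_num
  apply false_of_normalizer_le_centralizer hnc hdvd S
  intro g hg
  rw [Subgroup.mem_centralizer_iff]
  intro w hw
  have hgcomm : g * y = y * g := by
    -- the conjugate of `y` generates the same group
    have hz : g * y * g⁻¹ ∈ Subgroup.zpowers y :=
      (Subgroup.mem_normalizer_iff.mp hg y).mp (Subgroup.mem_zpowers y)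
    have hz1 : g * y * g⁻¹ ≠ 1 := by
      intro h0
      apply hy1
      have h3 : y = g⁻¹ * (g * y * g⁻¹) * g := by group
      rw [h3, h0]
      simp
    have hzo : orderOf (g * y * g⁻¹) = 3 := by
      rw [orderOf_eq_prime_iff] at hyo ⊢
      refine ⟨?_, hz1⟩
      rw [conj_pow, hy3]
      simp
    have hzz : Subgroup.zpowers (g * y * g⁻¹) = Subgroup.zpowers y := by
      apply Subgroup.eq_of_le_of_card_ge
      · rw [Subgroup.zpowers_le]; exact hz
      · rw [Nat.card_zpowers, Nat.card_zpowers, hyo, hzo]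
    have hyz : y ∈ Subgroup.zpowers (g * y * g⁻¹) := by
      rw [hzz]; exact Subgroup.mem_zpowers y
    obtain ⟨k, hk⟩ := Subgroup.mem_zpowers_iff.mp hyz
    -- images of fixed points are fixed
    have hfix2 : ∀ u : OnePoint (ZMod 7), L.ρ y u = u → L.ρ y (L.ρ g u) = L.ρ g u := by
      intro u hu
      have hzfix : L.ρ (g * y * g⁻¹) (L.ρ g u) = L.ρ g u := by
        simp only [map_mul, Equiv.Perm.mul_apply, map_inv]
        rw [Equiv.Perm.inv_eq_iff_eq.mpr (rfl : L.ρ g u = L.ρ g u), hu]
      have hst : (g * y * g⁻¹) ∈ (MulAction.stabilizer (Equiv.Perm (OnePoint (ZMod 7))) (L.ρ g u)).comap L.ρ := by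
        rw [Subgroup.mem_comap, MulAction.mem_stabilizer_iff]
        exact hzfix
      have hst2 := Subgroup.zpow_mem _ hst k
      rw [hk, Subgroup.mem_comap, MulAction.mem_stabilizer_iff] at hst2
      exact hst2
    have hu1 := hfixed _ (hfix2 ∞ hyi)
    have hy0 : L.ρ y ((0 : ZMod 7) : OnePoint (ZMod 7)) = ((0 : ZMod 7) : OnePoint (ZMod 7)) := by
      rw [hy, mul_zero]
    have hu2 := hfixed _ (hfix2 _ hy0)
    have hne : L.ρ g ∞ ≠ L.ρ g ((0 : ZMod 7) : OnePoint (ZMod 7)) := fun h0 =>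
      OnePoint.infty_ne_coe _ ((L.ρ g).injective h0)
    rcases hu1 with hu1 | hu1
    · have hu2' : L.ρ g ((0 : ZMod 7) : OnePoint (ZMod 7)) = ((0 : ZMod 7) : OnePoint (ZMod 7)) := by
        rcases hu2 with hu2 | hu2
        · exact absurd (hu1.trans hu2.symm) hne
        · exact hu2
      exact hD g hu1 hu2'
    · have hu2' : L.ρ g ((0 : ZMod 7) : OnePoint (ZMod 7)) = ∞ := by
        rcases hu2 with hu2 | hu2
        · exact hu2
        · exact absurd (hu1.trans hu2.symm) hne
      have h3 := hD (g * t⁻¹) (by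
        rw [map_mul, Equiv.Perm.mul_apply, L.swap_inv_infty htinf ht0, hu2']) (by
        rw [map_mul, Equiv.Perm.mul_apply, L.swap_inv_zero htinf ht0, hu1])
      -- `g = (g t⁻¹) t`
      calc g * y = (g * t⁻¹) * (t * y) := by group
        _ = (g * t⁻¹) * (y * t) := by rw [hcommt]
        _ = ((g * t⁻¹) * y) * t := by group
        _ = (y * (g * t⁻¹)) * t := by rw [h3]
        _ = y * g := by group
  change w ∈ Subgroup.zpowers y at hw
  obtain ⟨k, rfl⟩ := Subgroup.mem_zpowers_iff.mp hw
  exact ((Commute.zpow_right (show Commute g y from hgcomm) k).eq).symm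

theorem psl_of_card_168 (h : Nat.card G = 168) :
    Nonempty (G ≃* Matrix.ProjectiveSpecialLinearGroup (Fin 2) (ZMod 7)) := by
  haveI : Fact (Nat.Prime 7) := ⟨by norm_num⟩
  have hnc : ¬ IsMulCommutative G := not_comm_of_not_prime (by rw [h]; norm_num)
  obtain ⟨h1, h2, h3, -, h5⟩ := sylow_facts (G := G) hnc 7 1 24 (by rw [h]; norm_num) (by norm_num) one_ne_zero
  have hP : ∀ P : Sylow 7 G, Nat.card (P : Subgroup G) = 7 := fun P => by
    have := (h5 P).1
    rwa [pow_one] at this
  have hnp : Nat.card (Sylow 7 G) = 7 + 1 := by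
    have : ∀ n, n ≤ 24 → n ∣ 24 → n % 7 = 1 → n ≠ 1 → n = 7 + 1 := by decide
    exact this _ (Nat.le_of_dvd (by norm_num) h1) h1 h2 h3
  obtain ⟨L⟩ := exists_lineAction_of_simple hP hnp
  refine L.psl_of_check (m := 3) (by rw [h]) (by norm_num) 3 3 three_ne_zero_7 three_ne_zero_7 _ tbl7 2 check7 ?_
  intro t y b htinf ht0 hyi hy hb hb2
  rw [hb2] at hb
  exact swap_not_centralize h L t y htinf ht0 hyi (fun i => by rw [hy, three_sq_7]) hb

end

end Cfsg.Agent.Lib.SmallSimple
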